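import Cfsg.Agent.Lib.Helper93.Sp4.L0
import Cfsg.Agent.Lib.Helper93.Sp4.L1
import Cfsg.Agent.Lib.Helper93.Sp4.L2
import Cfsg.Agent.Lib.Helper93.Sp4.L3
import Cfsg.Agent.Lib.Helper93.Sp4.L4
import Cfsg.Agent.Lib.Helper93.Sp4.L5

set_option autoImplicit false

namespace Cfsg.Agent.Lib.Helper93.Sp4

open Cfsg.Agent.Lib.Helper28

variable {G : Type*} [Group G] (v : ℕ → G)

theorem bound_6 : Finite (Sg v []) ∧ Nat.card (Sg v []) ≤ 1 := by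
  rw [Sg_nil]
  exact ⟨inferInstance, by simp⟩

theorem bound_5 (hW : ∀ w ∈ W, evalW v w = 1) (hoinv : ∀ y < 6, v (oinv y) = (v y)⁻¹) :
    Finite (Sg v [0]) ∧ Nat.card (Sg v [0]) ≤ 2 := by
  obtain ⟨f, c⟩ := bound_6 v
  obtain ⟨f', c'⟩ := L5.ok.card_le v hW hoinv f
  exact ⟨f', le_trans c' (le_trans (Nat.mul_le_mul_left _ c) (by show 2 * 1 ≤ 2; norm_num))⟩

theorem bound_4 (hW : ∀ w ∈ W, evalW v w = 1) (hoinv : ∀ y < 6, v (oinv y) = (v y)⁻¹) :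
    Finite (Sg v [0, 1]) ∧ Nat.card (Sg v [0, 1]) ≤ 20 := by
  obtain ⟨f, c⟩ := bound_5 v hW hoinv
  obtain ⟨f', c'⟩ := L4.ok.card_le v hW hoinv f
  exact ⟨f', le_trans c' (le_trans (Nat.mul_le_mul_left _ c) (by show 10 * 2 ≤ 20; norm_num))⟩

theorem bound_3 (hW : ∀ w ∈ W, evalW v w = 1) (hoinv : ∀ y < 6, v (oinv y) = (v y)⁻¹) :
    Finite (Sg v [0, 1, 3]) ∧ Nat.card (Sg v [0, 1, 3]) ≤ 240 := by
  obtain ⟨f, c⟩ := bound_4 v hW hoinv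
  obtain ⟨f', c'⟩ := L3.ok.card_le v hW hoinv f
  exact ⟨f', le_trans c' (le_trans (Nat.mul_le_mul_left _ c) (by show 12 * 20 ≤ 240; norm_num))⟩

theorem bound_2 (hW : ∀ w ∈ W, evalW v w = 1) (hoinv : ∀ y < 6, v (oinv y) = (v y)⁻¹) :
    Finite (Sg v [0, 1, 2, 3]) ∧ Nat.card (Sg v [0, 1, 2, 3]) ≤ 3840 := by
  obtain ⟨f, c⟩ := bound_3 v hW hoinv
  obtain ⟨f', c'⟩ := L2.ok.card_le v hW hoinv f
  exact ⟨f', le_trans c' (le_trans (Nat.mul_le_mul_left _ c) (by show 16 * 240 ≤ 3840; norm_num))⟩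

theorem bound_1 (hW : ∀ w ∈ W, evalW v w = 1) (hoinv : ∀ y < 6, v (oinv y) = (v y)⁻¹) :
    Finite (Sg v [0, 1, 2, 3, 4, 5]) ∧ Nat.card (Sg v [0, 1, 2, 3, 4, 5]) ≤ 979200 := by
  obtain ⟨f, c⟩ := bound_2 v hW hoinv
  obtain ⟨f', c'⟩ := L1.ok.card_le v hW hoinv f
  exact ⟨f', le_trans c' (le_trans (Nat.mul_le_mul_left _ c) (by show 255 * 3840 ≤ 979200; norm_num))⟩

/-- the relative bound for the top link -/
theorem top_le (hW : ∀ w ∈ W0, evalW v w = 1) (hoinv : ∀ y < 8, v (oinv y) = (v y)⁻¹)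
    (hf : Finite (Sg v [0, 1, 2, 3, 4, 5])) :
    Nat.card (Sg v [0, 1, 2, 3, 4, 5, 6, 7]) ≤ 2 * Nat.card (Sg v [0, 1, 2, 3, 4, 5]) :=
  (L0.ok.card_le v hW hoinv hf).2

end Cfsg.Agent.Lib.Helper93.Sp4
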