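import Cfsg.Agent.Lib.Helper93.Sp4.HeSide
import Cfsg.Agent.Lib.Helper93.Sp4.MatSide

/-!
# The isomorphism between a subgroup of index 2 of `Sp₄(4):2 ≤ He` and `Sp₄(4)` (helper93)
-/

set_option autoImplicit false

namespace Cfsg.Agent.Lib.Helper93.Sp4

open Cfsg.Agent.Lib.Helper28

/-- a surjection from a finite group onto a group which is at least as big is an isomorphism -/
theorem equiv_map_of_card_le {G G' : Type*} [Group G] [Group G'] (f : G →* G') (D : Subgroup G)
    (hD : Finite D) (h : Nat.card D ≤ Nat.card (D.map f)) : Nonempty (D ≃* D.map f) := by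
  have hs : Function.Surjective (f.subgroupMap D) := f.subgroupMap_surjective D
  have h1 : Nat.card (D.map f) ≤ Nat.card D := Nat.card_le_card_of_surjective _ hs
  have hb : Function.Bijective (f.subgroupMap D) :=
    (Nat.bijective_iff_surjective_and_card _).mpr ⟨hs, le_antisymm h h1⟩
  exact ⟨MulEquiv.ofBijective _ hb⟩

/-- the diagonal letters -/
noncomputable def vD (x : ℕ) : HeG × SpG := (vHe x, vM x)

theorem evalW_vD (w : List ℕ) : evalW vD w = (evalW vHe w, evalW vM w) := by
  induction w with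
  | nil => rfl
  | cons x w ih => rw [evalW_cons, evalW_cons, evalW_cons, ih]; rfl

/-- the diagonal subgroup -/
noncomputable def Dg : Subgroup (HeG × SpG) := Sg vD [0, 1, 2, 3, 4, 5]

theorem Dg_bound : Finite Dg ∧ Nat.card Dg ≤ 979200 := by
  refine bound_1 vD ?_ ?_
  · intro w hw
    rw [evalW_vD, vHe_W w hw, vM_W w hw]; rfl
  · intro y hy
    show (vHe (oinv y), vM (oinv y)) = (vHe y, vM y)⁻¹
    rw [vHe_oinv y (by omega), vM_oinv y hy]; rfl

theorem Dg_fst : Dg.map (MonoidHom.fst HeG SpG) = N0 := by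
  unfold Dg N0 Sg
  rw [MonoidHom.map_closure, Set.image_image]
  rfl

theorem Dg_snd : Dg.map (MonoidHom.snd HeG SpG) = M0 := by
  unfold Dg M0 Sg
  rw [MonoidHom.map_closure, Set.image_image]
  rfl

theorem N0_iso : Nonempty (N0 ≃* SpG) := by
  obtain ⟨hf, hc⟩ := Dg_bound
  obtain ⟨e1⟩ := equiv_map_of_card_le (MonoidHom.fst HeG SpG) Dg hf (by rw [Dg_fst, card_N0]; exact hc)
  obtain ⟨e2⟩ := equiv_map_of_card_le (MonoidHom.snd HeG SpG) Dg hf (by
    rw [Dg_snd, M0_top, Subgroup.card_top, card_SpG]; exact hc)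
  exact ⟨(MulEquiv.subgroupCongr Dg_fst).symm.trans (e1.symm.trans (e2.trans
    ((MulEquiv.subgroupCongr (Dg_snd.trans M0_top)).trans Subgroup.topEquiv)))⟩

/-- the subgroup of index 2 -/
noncomputable def N1 : Subgroup H0 := N0.subgroupOf H0

theorem N1_iso : Nonempty (N1 ≃* SpG) := by
  obtain ⟨e⟩ := N0_iso
  exact ⟨(Subgroup.subgroupOfEquivOfLe N0_le).trans e⟩

theorem N1_index : N1.index = 2 := by
  have h1 : Nat.card N1 * N1.index = Nat.card H0 := N1.card_mul_index
  have h2 : Nat.card N1 = 979200 := by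
    show Nat.card (N0.subgroupOf H0) = 979200
    rw [Nat.card_congr (Subgroup.subgroupOfEquivOfLe N0_le).toEquiv, card_N0]
  rw [h2, card_H0] at h1
  omega

theorem N1_normal : N1.Normal := Subgroup.normal_of_index_eq_two N1_index

end Cfsg.Agent.Lib.Helper93.Sp4
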