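import Cfsg.Agent.Lib.Helper28.TCChain
import Cfsg.Agent.Lib.Helper93.Sp4.W

set_option autoImplicit false
set_option maxRecDepth 100000

namespace Cfsg.Agent.Lib.Helper93.Sp4.L0

open Cfsg.Agent.Lib.Helper28

noncomputable def tabC0 : Tr := .leaf 0x94
noncomputable def auxC0 : Tr := .leaf 0xc1
noncomputable def tabC1 : Tr := .leaf 0x94
noncomputable def auxC1 : Tr := .leaf 0x101
noncomputable def tabC2 : Tr := .leaf 0x94
noncomputable def auxC2 : Tr := .leaf 0x141
noncomputable def tabC3 : Tr := .leaf 0x94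
noncomputable def auxC3 : Tr := .leaf 0x181
noncomputable def tabC4 : Tr := .leaf 0x94
noncomputable def auxC4 : Tr := .leaf 0x1c1
noncomputable def tabC5 : Tr := .leaf 0xa4
noncomputable def auxC5 : Tr := .leaf 0x601
noncomputable def tabC6 : Tr := .leaf 0x58
noncomputable def auxC6 : Tr := .leaf 0x240
noncomputable def tabC7 : Tr := .leaf 0xa5
noncomputable def auxC7 : Tr := .leaf 0x482
noncomputable def tabC8 : Tr := .leaf 0
noncomputable def auxC8 : Tr := .leaf 0
noncomputable def dC : Tr := .leaf 0x600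
noncomputable def tabCols : List Tr := [tabC0, tabC1, tabC2, tabC3, tabC4, tabC5, tabC6, tabC7, tabC8]
noncomputable def auxCols : List Tr := [auxC0, auxC1, auxC2, auxC3, auxC4, auxC5, auxC6, auxC7, auxC8]
def pairsC : List ((List ℕ × ℕ × List ℕ) × ℕ) := [
  (([1, 0, 1, 0, 1, 0, 1, 0, 1, 0], 7, []), 5122),
  (([6], 0, [1, 0, 1, 0, 1, 0, 1, 0, 1, 2, 6]), 0),
  (([6], 1, [1, 6]), 1024),
  (([6], 2, [2, 6]), 2048),
  (([6], 3, [3, 6]), 3072),
  (([6], 4, [4, 6]), 4096),
  (([4], 5, []), 10240),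
  (([6], 6, []), 12288)]
def subL : List ℕ := [0, 1, 2, 3, 4, 5]
noncomputable def D : UB where
  tab := field tabCols 6 63 4 15
  aux := field auxCols 6 63 6 63
  dinfo := field [dC] 6 63 8 255 0
  rb := 2
  RM := 3
  pb := 4
  PM := 15
  m := 2
  K := 8
  Kall := 9
  pairs := pairsC.map Prod.fst
  isSub := fun x => subL.contains x
  fuel := 2
def ren : ℕ → ℕ
  | 0 => 0
  | 1 => 1
  | 2 => 2
  | 3 => 3
  | 4 => 4
  | 5 => 5
  | 6 => 6
  | 7 => 7
  | _ => 0
def linv : ℕ → ℕ
  | 0 => 0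
  | 1 => 1
  | 2 => 2
  | 3 => 3
  | 4 => 5
  | 5 => 4
  | 6 => 6
  | 7 => 7
  | x => x
def relsL : List (List ℕ) := [
  [6, 0, 6, 2, 1, 0, 1, 0, 1, 0, 1, 0, 1],
  [6, 1, 6, 1],
  [6, 2, 6, 2],
  [6, 3, 6, 3],
  [6, 4, 6, 5],
  [7, 1, 0, 1, 0, 1, 0, 1, 0, 1, 0]]
noncomputable def Lk : Link where
  D := D
  ren := ren
  inv := linv
  rels := relsL
  pairsC := pairsC
  subL := subL
  n := 2
theorem chk_0 : allRange D.checkLabel 0 2 = true := by decide +kernel
theorem check_all : ∀ c < D.m, D.checkLabel c = true := by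
  intro c hc
  have hc' : c < 2 := hc
  by_cases h0 : c < 2
  · exact allRange_iff.mp chk_0 c (by omega) (by omega)
  omega
theorem pairs_ok : pairsC.all (pairOK (relsAll relsL linv 9) linv 8 9) = true := by decide +kernel
theorem relsK_ok : ∀ r ∈ relsAll relsL linv 9, ∀ y ∈ r, y < 9 := by decide +kernel
theorem core : Lk.Core Cfsg.Agent.Lib.Helper93.Sp4.W0 Cfsg.Agent.Lib.Helper93.Sp4.oinv 8 [0, 1, 2, 3, 4, 5] where
  Kall := rfl
  invK := by decide +kernel
  invE := rfl
  relsIn := by decide +kernel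
  Dpairs := rfl
  pairs := pairs_ok
  relsK := relsK_ok
  isSub := by
    intro x hx
    have hx' : subL.contains x = true := hx
    show x ∈ subL
    simpa using hx'
  sub := by decide +kernel
  check := check_all
theorem fin_all : allBelow D.finalLabel 2 = true := by decide +kernel
theorem live_count : D.liveCount = 2 := by decide +kernel
theorem h0_ok : D.tg D.K 0 = 0 := by decide +kernel
theorem ok : Lk.OK Cfsg.Agent.Lib.Helper93.Sp4.W0 Cfsg.Agent.Lib.Helper93.Sp4.oinv 8 [0, 1, 2, 3, 4, 5, 6, 7] [0, 1, 2, 3, 4, 5] where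
  toCore := core
  gens := by decide +kernel
  hm := by decide
  h0 := h0_ok
  fin := allBelow_iff.mp fin_all
  count := live_count

end Cfsg.Agent.Lib.Helper93.Sp4.L0
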